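import Cfsg.Agent.H178.CType.PSL2Idx
import Cfsg.Agent.S0252
import Cfsg.Agent.S0253

/-!
# The class-size data of `PSL₂(q)`: the statements used for the groups of small conjugate type rank
-/

set_option autoImplicit false

namespace Cfsg.Agent.H178.PSL2Idx

open Matrix Subgroup

theorem psl2_even {F : Type} [Field F] [Fintype F] (m : ℕ) (hm : 2 ≤ m) (hF : Fintype.card F = 2 ^ m) :
    Set.ncard {k : ℕ | ∃ x : ProjectiveSpecialLinearGroup (Fin 2) F, x ∉ Subgroup.center _ ∧
      k = (Subgroup.centralizer ({x} : Set (ProjectiveSpecialLinearGroup (Fin 2) F))).index} = 3 :=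
  idx_PSL2_even hm hF

theorem psl2_odd {F : Type} [Field F] [Fintype F] (ho : Odd (Fintype.card F)) (h7 : 7 ≤ Fintype.card F) :
    Set.ncard {k : ℕ | ∃ x : ProjectiveSpecialLinearGroup (Fin 2) F, x ∉ Subgroup.center _ ∧
      k = (Subgroup.centralizer ({x} : Set (ProjectiveSpecialLinearGroup (Fin 2) F))).index} = 4 :=
  idx_PSL2_odd ho h7

/-- `PSL₂(5) ≃ PSL₂(4)` -/
theorem psl2_five {F : Type} [Field F] [Fintype F] (hF : Fintype.card F = 5) :
    ∃ (m : ℕ) (K : Type) (_ : Field K) (_ : Fintype K), 2 ≤ m ∧ Fintype.card K = 2 ^ m ∧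
      Nonempty (ProjectiveSpecialLinearGroup (Fin 2) F ≃* ProjectiveSpecialLinearGroup (Fin 2) K) := by
  have : Fact (Nat.Prime 2) := ⟨Nat.prime_two⟩
  let _ : Fintype (GaloisField 2 2) := Fintype.ofFinite _
  have hc : Fintype.card (GaloisField 2 2) = 2 ^ 2 := by
    rw [← Nat.card_eq_fintype_card, GaloisField.card 2 2 (by norm_num)]
  obtain ⟨f⟩ := S0252.result (F := GaloisField 2 2) (by rw [hc]; norm_num)
  obtain ⟨g⟩ := S0253.result (F := F) hF
  exact ⟨2, GaloisField 2 2, inferInstance, inferInstance, le_rfl, hc, ⟨g.trans f.symm⟩⟩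

end Cfsg.Agent.H178.PSL2Idx
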