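import Cfsg.Agent.H307.ConicCount
import Cfsg.Agent.ClassicalGeometry.PSL2Basic
import Cfsg.Agent.H426.SL2Unrec

/-!
# The indices of the centralizers in `PSL₂(q)`
-/

set_option autoImplicit false

namespace Cfsg.Agent.H178.PSL2Idx

open Matrix Subgroup Cfsg.Agent.ClassicalGeometry.PSL2Basic

/-- the set of indices of the centralizers of non-central elements -/
def idx (G : Type*) [Group G] : Set ℕ :=
  {m : ℕ | ∃ x : G, x ∉ Subgroup.center G ∧ m = (Subgroup.centralizer ({x} : Set G)).index}

theorem card_centralizer_map {G H : Type*} [Group G] [Group H] (e : G ≃* H) (x : G) :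
    (centralizer ({e x} : Set H)) = (centralizer ({x} : Set G)).map (e : G →* H) := by
  ext y
  rw [mem_centralizer_singleton_iff, mem_map]
  constructor
  · intro h
    refine ⟨e.symm y, ?_, by simp⟩
    rw [mem_centralizer_singleton_iff]
    apply e.injective
    simpa using h
  · rintro ⟨z, hz, rfl⟩
    rw [mem_centralizer_singleton_iff] at hz
    rw [MonoidHom.coe_coe, ← map_mul, hz, map_mul]

theorem idx_le {G H : Type*} [Group G] [Group H] (e : G ≃* H) : idx G ⊆ idx H := by
  rintro m ⟨x, hx, rfl⟩
  refine ⟨e x, ?_, ?_⟩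
  · intro h
    apply hx
    rw [mem_center_iff] at h ⊢
    intro g
    apply e.injective
    rw [map_mul, map_mul, h]
  · rw [card_centralizer_map, index_map_equiv]

theorem idx_congr {G H : Type*} [Group G] [Group H] (e : G ≃* H) : idx G = idx H :=
  le_antisymm (idx_le e) (idx_le e.symm)

variable {F : Type*} [Field F]

/-- a matrix of `SL₂` that is not central is not scalar -/
theorem ns {A : SpecialLinearGroup (Fin 2) F} (hA : A ∉ center (SpecialLinearGroup (Fin 2) F)) :
    A.1 0 1 ≠ 0 ∨ A.1 1 0 ≠ 0 ∨ A.1 0 0 - A.1 1 1 ≠ 0 := by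
  by_contra hcon
  push Not at hcon
  obtain ⟨h1, h2, h3⟩ := hcon
  have hd := A.2
  rw [det_fin_two] at hd
  have h4 : A.1 0 0 = A.1 1 1 := by linear_combination h3
  rw [h1, h2, h4] at hd
  have h5 : (A.1 1 1 - 1) * (A.1 1 1 + 1) = 0 := by linear_combination hd
  apply hA
  rw [mem_center_SL2_iff]
  rcases mul_eq_zero.1 h5 with h | h
  · left
    ext i j
    fin_cases i <;> fin_cases j
    · simpa using (by linear_combination h3 + h : A.1 0 0 = 1)
    · simpa using h1
    · simpa using h2
    · simpa using (by linear_combination h : A.1 1 1 = 1)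
  · right
    ext i j
    fin_cases i <;> fin_cases j
    · simpa using (by linear_combination h3 + h : A.1 0 0 = -1)
    · simpa using h1
    · simpa using h2
    · simpa using (by linear_combination h : A.1 1 1 = -1)

/-- the commutant of a non-scalar matrix -/
theorem exists_coeff {A B : Matrix (Fin 2) (Fin 2) F} (hA : A 0 1 ≠ 0 ∨ A 1 0 ≠ 0 ∨ A 0 0 - A 1 1 ≠ 0)
    (h : B * A = A * B) : ∃ a b : F, B = a • (1 : Matrix (Fin 2) (Fin 2) F) + b • A := by
  have h00 := congrFun (congrFun h 0) 0
  have h01 := congrFun (congrFun h 0) 1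
  have h10 := congrFun (congrFun h 1) 0
  simp only [mul_apply, Fin.sum_univ_two] at h00 h01 h10
  have main : ∀ b : F, B 0 1 = b * A 0 1 → B 1 0 = b * A 1 0 → B 0 0 - B 1 1 = b * (A 0 0 - A 1 1) →
      ∃ a b : F, B = a • (1 : Matrix (Fin 2) (Fin 2) F) + b • A := by
    intro b h1 h2 h3
    refine ⟨B 0 0 - b * A 0 0, b, ?_⟩
    ext i j
    fin_cases i <;> fin_cases j
    · simp
    · simpa using h1
    · simpa using h2
    · simpa using (by linear_combination -h3 : B 1 1 = B 0 0 - b * A 0 0 + b * A 1 1)
  rcases hA with h1 | h1 | h1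
  · refine main (B 0 1 / A 0 1) (by field_simp) ?_ ?_
    · field_simp
      linear_combination -h00
    · field_simp
      linear_combination h01
  · refine main (B 1 0 / A 1 0) ?_ (by field_simp) ?_
    · field_simp
      linear_combination h00
    · field_simp
      linear_combination -h10
  · refine main ((B 0 0 - B 1 1) / (A 0 0 - A 1 1)) ?_ ?_ (by field_simp)
    · field_simp
      linear_combination -h01
    · field_simp
      linear_combination h10

/-- the conic -/
abbrev Conic (F : Type*) [Field F] (t : F) : Type _ := {p : F × F // p.1 ^ 2 + t * p.1 * p.2 + p.2 ^ 2 = 1}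

theorem det_coeff {A : SpecialLinearGroup (Fin 2) F} (a b : F) :
    (a • (1 : Matrix (Fin 2) (Fin 2) F) + b • A.1).det = a ^ 2 + A.1.trace * a * b + b ^ 2 := by
  have hd := A.2
  rw [det_fin_two] at hd
  rw [det_fin_two, trace_fin_two]
  simp
  linear_combination b ^ 2 * hd

theorem card_SL2_centralizer {A : SpecialLinearGroup (Fin 2) F}
    (hA : A ∉ center (SpecialLinearGroup (Fin 2) F)) :
    Nat.card (centralizer ({A} : Set (SpecialLinearGroup (Fin 2) F))) = Nat.card (Conic F A.1.trace) := by
  symm
  let f : Conic F A.1.trace → centralizer ({A} : Set (SpecialLinearGroup (Fin 2) F)) := fun p =>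
    ⟨⟨p.1.1 • (1 : Matrix (Fin 2) (Fin 2) F) + p.1.2 • A.1, by rw [det_coeff]; exact p.2⟩, by
      refine mem_centralizer_singleton_iff.mpr (Subtype.ext ?_)
      change (p.1.1 • (1 : Matrix (Fin 2) (Fin 2) F) + p.1.2 • A.1) * A.1 =
        A.1 * (p.1.1 • (1 : Matrix (Fin 2) (Fin 2) F) + p.1.2 • A.1)
      rw [add_mul, mul_add]
      simp⟩
  refine Nat.card_congr (Equiv.ofBijective f ⟨?_, ?_⟩)
  · rintro ⟨⟨a, b⟩, h1⟩ ⟨⟨a', b'⟩, h2⟩ h
    have h3 : (a • (1 : Matrix (Fin 2) (Fin 2) F) + b • A.1) = (a' • (1 : Matrix (Fin 2) (Fin 2) F) + b' • A.1) :=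
      congrArg (fun x : centralizer ({A} : Set (SpecialLinearGroup (Fin 2) F)) => x.1.1) h
    have h00 := congrFun (congrFun h3 0) 0
    have h01 := congrFun (congrFun h3 0) 1
    have h10 := congrFun (congrFun h3 1) 0
    have h11 := congrFun (congrFun h3 1) 1
    simp at h00 h01 h10 h11
    have hb : b = b' := by
      rcases ns hA with h4 | h4 | h4
      · rcases h01 with h5 | h5
        · exact h5
        · exact absurd h5 h4
      · rcases h10 with h5 | h5
        · exact h5
        · exact absurd h5 h4
      · have : (b - b') * (A.1 0 0 - A.1 1 1) = 0 := by linear_combination h00 - h11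
        rcases mul_eq_zero.1 this with h5 | h5
        · linear_combination h5
        · exact absurd h5 h4
    subst hb
    have ha : a = a' := by linear_combination h00
    subst ha
    rfl
  · rintro ⟨B, hB⟩
    rw [mem_centralizer_singleton_iff] at hB
    obtain ⟨a, b, hab⟩ := exists_coeff (ns hA) (congrArg Subtype.val hB : B.1 * A.1 = A.1 * B.1)
    refine ⟨⟨(a, b), ?_⟩, ?_⟩
    · have h := B.2
      rw [hab, det_coeff] at h
      exact h
    · apply Subtype.ext
      apply Subtype.ext
      exact hab.symm

section count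

variable [Fintype F]

theorem conic_split {t s : F} (ht : t ^ 2 ≠ 4) (hs : s ^ 2 + t * s + 1 = 0) :
    Nat.card (Conic F t) = Fintype.card F - 1 := by
  have h := H307.Conic.card_conic t ht
  have h2 : Nat.card {s : F // s ^ 2 + t * s + 1 = 0} = 2 := by
    rw [Nat.card_eq_two_iff]
    refine ⟨⟨s, hs⟩, ⟨-t - s, by linear_combination hs⟩, ?_, ?_⟩
    · intro h3
      have h4 : s = -t - s := congrArg Subtype.val h3
      apply ht
      linear_combination (t + 2 * s) * h4 - 4 * hs
    · ext ⟨r, hr⟩
      simp only [Set.mem_insert_iff, Set.mem_singleton_iff, Set.mem_univ, iff_true, Subtype.mk.injEq]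
      have : (r - s) * (r - (-t - s)) = 0 := by linear_combination hr - hs
      rcases mul_eq_zero.1 this with h | h
      · left; linear_combination h
      · right; linear_combination h
  change Nat.card (Conic F t) + _ = _ at h
  omega

theorem conic_nonsplit {t : F} (ht : t ^ 2 ≠ 4) (hs : ∀ s : F, s ^ 2 + t * s + 1 ≠ 0) :
    Nat.card (Conic F t) = Fintype.card F + 1 := by
  have h := H307.Conic.card_conic t ht
  have h2 : Nat.card {s : F // s ^ 2 + t * s + 1 = 0} = 0 := by
    have : IsEmpty {s : F // s ^ 2 + t * s + 1 = 0} := ⟨fun s => hs s.1 s.2⟩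
    exact Nat.card_of_isEmpty
  change Nat.card (Conic F t) + _ = _ at h
  omega

/-- the degenerate conic -/
theorem conic_degen {e : F} (he : e ^ 2 = 1) : Nat.card (Conic F (2 * e)) =
    Fintype.card F * Nat.card {a : F // a ^ 2 = 1} := by
  rw [← Nat.card_eq_fintype_card, ← Nat.card_prod]
  refine Nat.card_congr ⟨fun p => (p.1.2, ⟨p.1.1 + e * p.1.2, ?_⟩), fun p => ⟨(p.2.1 - e * p.1, p.1), ?_⟩, ?_, ?_⟩
  · linear_combination p.2 + p.1.2 ^ 2 * he
  · linear_combination p.2.2 - p.1 ^ 2 * he
  · rintro ⟨⟨a, b⟩, h⟩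
    apply Subtype.ext
    simp
  · rintro ⟨a, b, h⟩
    simp

omit [Fintype F] in
theorem card_sq_one_odd (h2 : (2 : F) ≠ 0) : Nat.card {a : F // a ^ 2 = 1} = 2 := by
  rw [Nat.card_eq_two_iff]
  refine ⟨⟨1, by simp⟩, ⟨-1, by simp⟩, ?_, ?_⟩
  · intro h
    have : (1 : F) = -1 := congrArg Subtype.val h
    apply h2
    linear_combination this
  · ext ⟨r, hr⟩
    simp only [Set.mem_insert_iff, Set.mem_singleton_iff, Set.mem_univ, iff_true, Subtype.mk.injEq]
    have : (r - 1) * (r + 1) = 0 := by linear_combination hr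
    rcases mul_eq_zero.1 this with h | h
    · left; linear_combination h
    · right; linear_combination h

omit [Fintype F] in
theorem card_sq_one_even (h2 : (2 : F) = 0) : Nat.card {a : F // a ^ 2 = 1} = 1 := by
  rw [Nat.card_eq_one_iff_unique]
  refine ⟨⟨?_⟩, ⟨⟨1, by simp⟩⟩⟩
  rintro ⟨a, ha⟩ ⟨b, hb⟩
  have : (a - b) ^ 2 = 0 := by linear_combination ha + hb + (1 - a * b) * h2
  exact Subtype.ext (sub_eq_zero.1 ((pow_eq_zero_iff (by norm_num)).1 this))

omit [Fintype F] in
/-- `t² = 4` means `t = ± 2` -/
theorem exists_of_sq_four {t : F} (ht : t ^ 2 = 4) : ∃ e : F, e ^ 2 = 1 ∧ t = 2 * e := by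
  have : (t - 2) * (t + 2) = 0 := by linear_combination ht
  rcases mul_eq_zero.1 this with h | h
  · exact ⟨1, by simp, by linear_combination h⟩
  · exact ⟨-1, by simp, by linear_combination h⟩

/-- there are values outside the split traces -/
theorem exists_nonsplit (h3 : 3 < Fintype.card F) :
    ∃ t : F, t ≠ 0 ∧ t ^ 2 ≠ 4 ∧ ∀ s : F, s ^ 2 + t * s + 1 ≠ 0 := by
  classical
  by_contra hcon
  push Not at hcon
  -- `S` = the `s` with `s ≠ 0`, `s² ≠ 1`
  let S : Finset F := Finset.univ.filter (fun s : F => s ≠ 0 ∧ s ^ 2 ≠ 1)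
  let f : F → F := fun s => - (s + s⁻¹)
  let T : Finset F := Finset.univ.filter (fun t : F => t ≠ 0 ∧ t ^ 2 ≠ 4)
  have hTS : T ⊆ S.image f := by
    intro t ht
    simp only [T, Finset.mem_filter, Finset.mem_univ, true_and] at ht
    obtain ⟨s, hs⟩ := hcon t ht.1 ht.2
    have hs0 : s ≠ 0 := by
      rintro rfl
      simp at hs
    rw [Finset.mem_image]
    refine ⟨s, ?_, ?_⟩
    · simp only [S, Finset.mem_filter, Finset.mem_univ, true_and]
      refine ⟨hs0, ?_⟩
      intro h1
      apply ht.2
      have h4 : s * (t + 2 * s) = 0 := by linear_combination hs + h1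
      have h5 : t + 2 * s = 0 := (mul_eq_zero.1 h4).resolve_left hs0
      linear_combination (t - 2 * s) * h5 + 4 * h1
    · simp only [f]
      field_simp
      linear_combination -hs
  have hfib : 2 * (S.image f).card ≤ S.card := by
    apply Finset.mul_card_image_le_card
    intro b hb
    obtain ⟨s, hs, rfl⟩ := Finset.mem_image.mp hb
    simp only [S, Finset.mem_filter, Finset.mem_univ, true_and] at hs
    have h1 : s ≠ s⁻¹ := by
      intro h
      apply hs.2
      rw [pow_two]
      nth_rewrite 2 [h]
      exact mul_inv_cancel₀ hs.1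
    rw [← Finset.card_pair h1]
    apply Finset.card_le_card
    intro x hx
    simp only [Finset.mem_insert, Finset.mem_singleton] at hx
    simp only [S, Finset.mem_filter, Finset.mem_univ, true_and, f]
    rcases hx with rfl | rfl
    · exact ⟨hs, rfl⟩
    · refine ⟨⟨inv_ne_zero hs.1, ?_⟩, ?_⟩
      · rw [inv_pow]
        intro h
        exact hs.2 (inv_eq_one.mp h)
      · rw [inv_inv, add_comm]
  have hc := Finset.card_le_card hTS
  generalize (S.image f).card = N at hc hfib
  by_cases h2 : (2 : F) = 0
  · have h4 : (4 : F) = 0 := by linear_combination 2 * h2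
    have hT : T = Finset.univ.erase 0 := by
      ext x
      simp [T, h4]
    have hS : S = (Finset.univ.erase 0).erase 1 := by
      ext x
      simp only [S, Finset.mem_filter, Finset.mem_univ, true_and, Finset.mem_erase, and_true, ne_eq]
      constructor
      · rintro ⟨h5, h6⟩
        refine ⟨?_, h5⟩
        rintro rfl
        exact h6 (by simp)
      · rintro ⟨h5, h6⟩
        refine ⟨h6, ?_⟩
        intro h7
        apply h5
        have : (x - 1) ^ 2 = 0 := by linear_combination h7 + (1 - x) * h2
        exact sub_eq_zero.1 ((pow_eq_zero_iff (by norm_num)).1 this)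
    rw [hT, Finset.card_erase_of_mem (Finset.mem_univ _), Finset.card_univ] at hc
    rw [hS, Finset.card_erase_of_mem (by simp), Finset.card_erase_of_mem (Finset.mem_univ _),
      Finset.card_univ] at hfib
    omega
  · have h4 : (4 : F) ≠ 0 := by
      intro h
      apply h2
      have : (2 : F) ^ 2 = 0 := by linear_combination h
      exact (pow_eq_zero_iff (by norm_num)).1 this
    have h22 : (2 : F) ≠ -2 := by
      intro h
      apply h4
      linear_combination h
    have h11 : (1 : F) ≠ -1 := by
      intro h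
      apply h2
      linear_combination h
    have hT : T = ((Finset.univ.erase 0).erase 2).erase (-2) := by
      ext x
      simp only [T, Finset.mem_filter, Finset.mem_univ, true_and, Finset.mem_erase, and_true, ne_eq]
      constructor
      · rintro ⟨h5, h6⟩
        refine ⟨?_, ?_, h5⟩
        · rintro rfl
          exact h6 (by norm_num)
        · rintro rfl
          exact h6 (by norm_num)
      · rintro ⟨h5, h6, h7⟩
        refine ⟨h7, ?_⟩
        intro h8
        have : (x - 2) * (x + 2) = 0 := by linear_combination h8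
        rcases mul_eq_zero.1 this with h9 | h9
        · exact h6 (by linear_combination h9)
        · exact h5 (by linear_combination h9)
    have hS : S = ((Finset.univ.erase 0).erase 1).erase (-1) := by
      ext x
      simp only [S, Finset.mem_filter, Finset.mem_univ, true_and, Finset.mem_erase, and_true, ne_eq]
      constructor
      · rintro ⟨h5, h6⟩
        refine ⟨?_, ?_, h5⟩
        · rintro rfl
          exact h6 (by norm_num)
        · rintro rfl
          exact h6 (by norm_num)
      · rintro ⟨h5, h6, h7⟩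
        refine ⟨h7, ?_⟩
        intro h8
        have : (x - 1) * (x + 1) = 0 := by linear_combination h8
        rcases mul_eq_zero.1 this with h9 | h9
        · exact h6 (by linear_combination h9)
        · exact h5 (by linear_combination h9)
    rw [hT, Finset.card_erase_of_mem (by simp [h22.symm, h2]), Finset.card_erase_of_mem (by simp [h2]),
      Finset.card_erase_of_mem (Finset.mem_univ _), Finset.card_univ] at hc
    rw [hS, Finset.card_erase_of_mem (by simp [h11.symm]), Finset.card_erase_of_mem (by simp),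
      Finset.card_erase_of_mem (Finset.mem_univ _), Finset.card_univ] at hfib
    omega

/-- there are split traces different from zero -/
theorem exists_split (h : Fintype.card F = 4 ∨ 5 < Fintype.card F) :
    ∃ t s : F, t ≠ 0 ∧ t ^ 2 ≠ 4 ∧ s ^ 2 + t * s + 1 = 0 := by
  classical
  -- we need `s ≠ 0`, `s² ≠ ± 1`
  suffices ∃ s : F, s ≠ 0 ∧ s ^ 2 ≠ 1 ∧ s ^ 2 ≠ -1 by
    obtain ⟨s, h1, h2, h3⟩ := this
    refine ⟨- (s + s⁻¹), s, ?_, ?_, ?_⟩
    · intro h4
      apply h3
      have h5 : s * (s + s⁻¹) = 0 := by linear_combination -s * h4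
      rw [mul_add, mul_inv_cancel₀ h1] at h5
      linear_combination h5
    · intro h4
      apply h2
      have h5 : s * s⁻¹ = 1 := mul_inv_cancel₀ h1
      have h6 : (s - s⁻¹) ^ 2 = 0 := by linear_combination h4 - 4 * h5
      have h7 : s - s⁻¹ = 0 := (pow_eq_zero_iff (by norm_num)).1 h6
      linear_combination s * h7 + h5
    · have h5 : s * s⁻¹ = 1 := mul_inv_cancel₀ h1
      linear_combination -h5
  by_contra hcon
  push Not at hcon
  have hsub : (Finset.univ : Finset F) ⊆ insert 0 ((Polynomial.X ^ 4 - 1 : Polynomial F).roots.toFinset) := by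
    intro s _
    rw [Finset.mem_insert]
    by_cases h1 : s = 0
    · exact Or.inl h1
    right
    rw [Multiset.mem_toFinset, Polynomial.mem_roots]
    · rw [Polynomial.IsRoot.def]
      simp only [Polynomial.eval_sub, Polynomial.eval_pow, Polynomial.eval_X, Polynomial.eval_one]
      by_cases h2 : s ^ 2 = 1
      · linear_combination (s ^ 2 + 1) * h2
      · linear_combination (s ^ 2 - 1) * hcon s h1 h2
    · exact Polynomial.X_pow_sub_C_ne_zero (by norm_num) 1
  have hc := Finset.card_le_card hsub
  have hr : (Polynomial.X ^ 4 - 1 : Polynomial F).roots.toFinset.card ≤ 4 := by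
    refine le_trans (Multiset.toFinset_card_le _) (le_trans (Polynomial.card_roots' _) ?_)
    exact (Polynomial.natDegree_X_pow_sub_C (n := 4) (r := (1 : F))).le
  have hi := Finset.card_insert_le (0 : F) (Polynomial.X ^ 4 - 1 : Polynomial F).roots.toFinset
  rw [Finset.card_univ] at hc
  rcases h with h | h
  · -- `q = 4`
    have h2 : (2 : F) = 0 := by
      by_contra h2
      have := (two_ne_zero_iff_odd F).1 h2
      rw [h] at this
      exact absurd this (by decide)
    have hall : (Finset.univ : Finset F) ⊆ {0, 1} := by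
      intro s _
      simp only [Finset.mem_insert, Finset.mem_singleton]
      by_cases h1 : s = 0
      · exact Or.inl h1
      right
      have h6 : s ^ 2 = 1 := by
        by_contra h7
        have := hcon s h1 h7
        apply h7
        linear_combination this - h2
      have : (s - 1) ^ 2 = 0 := by linear_combination h6 + (1 - s) * h2
      exact sub_eq_zero.1 ((pow_eq_zero_iff (by norm_num)).1 this)
    have hc2 := Finset.card_le_card hall
    rw [Finset.card_univ] at hc2
    have := Finset.card_le_two (a := (0 : F)) (b := 1)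
    omega
  · omega

/-- the centralizer orders in `SL₂` -/
theorem conic_cases (t : F) : (t ^ 2 = 4 ∧ Nat.card (Conic F t) = Fintype.card F * Nat.card {a : F // a ^ 2 = 1}) ∨
    (t ^ 2 ≠ 4 ∧ (Nat.card (Conic F t) = Fintype.card F - 1 ∨ Nat.card (Conic F t) = Fintype.card F + 1)) := by
  by_cases ht : t ^ 2 = 4
  · left
    obtain ⟨e, he, rfl⟩ := exists_of_sq_four ht
    exact ⟨ht, conic_degen he⟩
  · right
    refine ⟨ht, ?_⟩
    by_cases hs : ∃ s : F, s ^ 2 + t * s + 1 = 0
    · obtain ⟨s, hs⟩ := hs
      exact Or.inl (conic_split ht hs)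
    · push Not at hs
      exact Or.inr (conic_nonsplit ht hs)

end count

/-- a matrix with given trace -/
def comp (t : F) : SpecialLinearGroup (Fin 2) F := ⟨!![t, -1; 1, 0], by simp [det_fin_two]⟩

theorem comp_trace (t : F) : (comp t).1.trace = t := by
  simp [comp, trace_fin_two]

theorem comp_notMem (t : F) : comp t ∉ center (SpecialLinearGroup (Fin 2) F) := by
  rw [mem_center_SL2_iff]
  rintro (h | h)
  · have := congrFun (congrFun (congrArg Subtype.val h) 1) 0
    simp [comp] at this
  · have := congrFun (congrFun (congrArg Subtype.val h) 1) 0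
    simp [comp] at this

/-! ### Even characteristic -/

theorem mem_center_of_trivial {G : Type*} [Group G] [IsSimpleGroup G] (hG : ¬ IsMulCommutative G) {x : G} :
    x ∈ center G ↔ x = 1 := by
  have : center G = ⊥ := by
    rcases (inferInstance : (center G).Normal).eq_bot_or_eq_top with h | h
    · exact h
    · exfalso
      apply hG
      constructor
      constructor
      intro a b
      have : b ∈ center G := by rw [h]; exact mem_top b
      exact mem_center_iff.mp this a
  rw [this, mem_bot]

theorem idx_SL2_even [Fintype F] (h2 : (2 : F) = 0) (h3 : 3 < Fintype.card F) :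
    idx (SpecialLinearGroup (Fin 2) F) =
      {Fintype.card F ^ 2 - 1, Fintype.card F * (Fintype.card F + 1), Fintype.card F * (Fintype.card F - 1)} := by
  obtain ⟨q, hq⟩ : ∃ q, Fintype.card F = q := ⟨_, rfl⟩
  obtain ⟨r, rfl⟩ : ∃ r, q = r + 4 := ⟨q - 4, by omega⟩
  have hone := card_sq_one_even h2
  have hcard := card_SL2 F
  have hodd : r + 4 ≠ 5 := by
    intro h
    apply (two_ne_zero_iff_odd F).2 _ h2
    rw [hq, h]
    decide
  have key : ∀ A : SpecialLinearGroup (Fin 2) F, A ∉ center (SpecialLinearGroup (Fin 2) F) →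
      Nat.card (Conic F A.1.trace) * (centralizer ({A} : Set (SpecialLinearGroup (Fin 2) F))).index =
        (r + 4) * ((r + 4) ^ 2 - 1) := by
    intro A hA
    rw [← card_SL2_centralizer hA, card_mul_index, hcard, hq]
  have e1 : (r + 4) ^ 2 - 1 = (r + 3) * (r + 5) := by
    rw [Nat.sub_eq_iff_eq_add (by nlinarith)]; ring
  have a1 : r + 4 - 1 = r + 3 := by omega
  rw [hq]
  rw [e1] at key ⊢
  rw [a1]
  have k1 : ∀ A : SpecialLinearGroup (Fin 2) F, A ∉ center (SpecialLinearGroup (Fin 2) F) →
      Nat.card (Conic F A.1.trace) = r + 4 →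
      (centralizer ({A} : Set (SpecialLinearGroup (Fin 2) F))).index = (r + 3) * (r + 5) := by
    intro A hA h
    have := key A hA
    rw [h] at this
    exact Nat.eq_of_mul_eq_mul_left (by omega) this
  have k2 : ∀ A : SpecialLinearGroup (Fin 2) F, A ∉ center (SpecialLinearGroup (Fin 2) F) →
      Nat.card (Conic F A.1.trace) = r + 3 →
      (centralizer ({A} : Set (SpecialLinearGroup (Fin 2) F))).index = (r + 4) * (r + 4 + 1) := by
    intro A hA h
    have := key A hA
    rw [h] at this
    apply Nat.eq_of_mul_eq_mul_left (show 0 < r + 3 by omega)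
    rw [this]; ring
  have k3 : ∀ A : SpecialLinearGroup (Fin 2) F, A ∉ center (SpecialLinearGroup (Fin 2) F) →
      Nat.card (Conic F A.1.trace) = r + 5 →
      (centralizer ({A} : Set (SpecialLinearGroup (Fin 2) F))).index = (r + 4) * (r + 3) := by
    intro A hA h
    have := key A hA
    rw [h] at this
    apply Nat.eq_of_mul_eq_mul_left (show 0 < r + 5 by omega)
    rw [this]; ring
  ext m
  simp only [Set.mem_insert_iff, Set.mem_singleton_iff]
  constructor
  · rintro ⟨A, hA, rfl⟩
    rcases conic_cases A.1.trace with ⟨-, h⟩ | ⟨-, h | h⟩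
    · rw [hone, hq, mul_one] at h
      exact Or.inl (k1 A hA h)
    · rw [hq] at h
      exact Or.inr (Or.inl (k2 A hA h))
    · rw [hq] at h
      exact Or.inr (Or.inr (k3 A hA h))
  · rintro (rfl | rfl | rfl)
    · refine ⟨comp 0, comp_notMem 0, ?_⟩
      rw [k1 _ (comp_notMem 0)]
      rw [comp_trace]
      have := conic_degen (e := (0 : F) + 1) (by simp)
      rw [h2, zero_mul, hone, mul_one, hq] at this
      exact this
    · obtain ⟨t, s, h4, h5, h6⟩ := exists_split (F := F) (by rw [hq]; omega)
      refine ⟨comp t, comp_notMem t, ?_⟩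
      rw [k2 _ (comp_notMem t)]
      rw [comp_trace, conic_split h5 h6, hq]
      omega
    · obtain ⟨t, h4, h5, h6⟩ := exists_nonsplit (F := F) h3
      refine ⟨comp t, comp_notMem t, ?_⟩
      rw [k3 _ (comp_notMem t)]
      rw [comp_trace, conic_nonsplit h5 h6, hq]

/-! ### Odd characteristic -/

/-- the preimage of the centralizer -/
def pre (A : SpecialLinearGroup (Fin 2) F) : Subgroup (SpecialLinearGroup (Fin 2) F) :=
  (centralizer ({QuotientGroup.mk' (center (SpecialLinearGroup (Fin 2) F)) A} :
    Set (ProjectiveSpecialLinearGroup (Fin 2) F))).comap (QuotientGroup.mk' (center (SpecialLinearGroup (Fin 2) F)))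

theorem index_pre (A : SpecialLinearGroup (Fin 2) F) : (pre A).index =
    (centralizer ({QuotientGroup.mk' (center (SpecialLinearGroup (Fin 2) F)) A} :
    Set (ProjectiveSpecialLinearGroup (Fin 2) F))).index :=
  index_comap_of_surjective _ (QuotientGroup.mk'_surjective _)

theorem mem_pre {A B : SpecialLinearGroup (Fin 2) F} : B ∈ pre A ↔ B * A = A * B ∨ B * A = - (A * B) := by
  rw [pre, mem_comap, mem_centralizer_singleton_iff, ← map_mul, ← map_mul]
  rw [eq_comm, QuotientGroup.mk'_apply, QuotientGroup.mk'_apply, QuotientGroup.eq, mem_center_SL2_iff]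
  constructor
  · rintro (h | h)
    · left
      exact (inv_mul_eq_one.mp h).symm
    · right
      rw [inv_mul_eq_iff_eq_mul] at h
      rw [h]; simp
  · rintro (h | h)
    · left
      rw [h, inv_mul_cancel]
    · right
      rw [h]; simp

theorem centralizer_le_pre (A : SpecialLinearGroup (Fin 2) F) :
    centralizer ({A} : Set (SpecialLinearGroup (Fin 2) F)) ≤ pre A := by
  intro B hB
  rw [mem_centralizer_singleton_iff] at hB
  exact mem_pre.mpr (Or.inl hB)

/-- no anticommuting matrices for non-zero trace -/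
theorem trace_zero (h2 : (2 : F) ≠ 0) {A B : SpecialLinearGroup (Fin 2) F} (h : B * A = - (A * B)) :
    A.1.trace = 0 := by
  have h1 : B.1 * A.1 = - (A.1 * B.1) := by
    have := congrArg Subtype.val h
    simpa using this
  have h3 : B.1 * B.1.adjugate = 1 := by rw [mul_adjugate, B.2, one_smul]
  have h4 : A.1.trace = - A.1.trace := by
    calc A.1.trace = ((A.1 * B.1) * B.1.adjugate).trace := by rw [mul_assoc, h3, mul_one]
      _ = (- (B.1 * A.1) * B.1.adjugate).trace := by rw [h1, neg_neg]
      _ = - (B.1 * A.1 * B.1.adjugate).trace := by rw [neg_mul, trace_neg]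
      _ = - (B.1.adjugate * (B.1 * A.1)).trace := by rw [trace_mul_comm]
      _ = - A.1.trace := by rw [← mul_assoc, adjugate_mul, B.2, one_smul, one_mul]
  have h5 : 2 * A.1.trace = 0 := by linear_combination h4
  exact (mul_eq_zero.1 h5).resolve_left h2

theorem index_eq_of_not {A : SpecialLinearGroup (Fin 2) F}
    (h : ¬ ∃ B : SpecialLinearGroup (Fin 2) F, B * A = - (A * B)) :
    (centralizer ({A} : Set (SpecialLinearGroup (Fin 2) F))).index =
    (centralizer ({QuotientGroup.mk' (center (SpecialLinearGroup (Fin 2) F)) A} :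
    Set (ProjectiveSpecialLinearGroup (Fin 2) F))).index := by
  rw [← index_pre]
  congr 1
  apply le_antisymm (centralizer_le_pre A)
  intro B hB
  rw [mem_centralizer_singleton_iff]
  rcases mem_pre.mp hB with h1 | h1
  · exact h1
  · exact absurd ⟨B, h1⟩ h

theorem index_eq_of_exists (h2 : (2 : F) ≠ 0) {A B : SpecialLinearGroup (Fin 2) F}
    (h : B * A = - (A * B)) :
    (centralizer ({A} : Set (SpecialLinearGroup (Fin 2) F))).index = 2 *
    (centralizer ({QuotientGroup.mk' (center (SpecialLinearGroup (Fin 2) F)) A} :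
    Set (ProjectiveSpecialLinearGroup (Fin 2) F))).index := by
  have hne : ∀ X : SpecialLinearGroup (Fin 2) F, X ≠ - X := by
    intro X hX
    apply neg_one_ne_one_SL2 h2
    have : X⁻¹ * X = X⁻¹ * (- X) := by rw [← hX]
    rw [mul_neg, inv_mul_cancel] at this
    exact this.symm
  rw [← index_pre, ← relIndex_mul_index (centralizer_le_pre A)]
  congr 1
  rw [relIndex, index_eq_two_iff]
  refine ⟨⟨B, mem_pre.mpr (Or.inr h)⟩, ?_⟩
  rintro ⟨X, hX⟩
  simp only [mem_subgroupOf, mem_centralizer_singleton_iff, coe_mul]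
  rcases mem_pre.mp hX with h1 | h1
  · right
    refine ⟨h1, ?_⟩
    intro h3
    rw [mul_assoc, h, mul_neg, ← mul_assoc, h1, mul_assoc] at h3
    exact hne _ h3.symm
  · left
    refine ⟨?_, ?_⟩
    · rw [mul_assoc, h, mul_neg, ← mul_assoc, h1, neg_mul, neg_neg, mul_assoc]
    · intro h3
      rw [h1] at h3
      exact hne _ h3.symm

theorem exists_anti [Fintype F] (hodd : Odd (Fintype.card F)) :
    ∃ B : SpecialLinearGroup (Fin 2) F, B * comp 0 = - (comp 0 * B) := by
  obtain ⟨x, y, hxy⟩ : ∃ x y : F, x ^ 2 + (y ^ 2 + 1) = 0 := by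
    obtain ⟨x, y, h⟩ := FiniteField.exists_root_sum_quadratic (R := F) (f := Polynomial.X ^ 2)
      (g := Polynomial.X ^ 2 + Polynomial.C 1) (Polynomial.degree_X_pow 2)
      (Polynomial.degree_X_pow_add_C (by norm_num) 1) (Nat.odd_iff.mp hodd)
    exact ⟨x, y, by simpa using h⟩
  refine ⟨⟨!![x, y; y, -x], ?_⟩, ?_⟩
  · rw [det_fin_two_of]
    linear_combination -hxy
  · apply Subtype.ext
    change (!![x, y; y, -x] * !![0, -1; 1, 0] : Matrix (Fin 2) (Fin 2) F) = - (!![0, -1; 1, 0] * !![x, y; y, -x])
    ext i j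
    fin_cases i <;> fin_cases j <;> simp

theorem idx_PSL2_odd [Fintype F] (hodd : Odd (Fintype.card F)) (h7 : 7 ≤ Fintype.card F) :
    (idx (ProjectiveSpecialLinearGroup (Fin 2) F)).ncard = 4 := by
  have h2 : (2 : F) ≠ 0 := (two_ne_zero_iff_odd F).2 hodd
  obtain ⟨k, hk⟩ := hodd
  obtain ⟨r, rfl⟩ : ∃ r, k = r + 3 := ⟨k - 3, by omega⟩
  have hq : Fintype.card F = 2 * r + 7 := by omega
  have htwo := card_sq_one_odd h2
  have hcard := card_SL2 F
  have e1 : (2 * r + 7) ^ 2 - 1 = (2 * r + 6) * (2 * r + 8) := by
    rw [Nat.sub_eq_iff_eq_add (by nlinarith)]; ring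
  have key : ∀ A : SpecialLinearGroup (Fin 2) F, A ∉ center (SpecialLinearGroup (Fin 2) F) →
      Nat.card (Conic F A.1.trace) * (centralizer ({A} : Set (SpecialLinearGroup (Fin 2) F))).index =
        (2 * r + 7) * ((2 * r + 6) * (2 * r + 8)) := by
    intro A hA
    rw [← card_SL2_centralizer hA, card_mul_index, hcard, hq, e1]
  -- the values of the index in `SL₂`
  have k1 : ∀ A : SpecialLinearGroup (Fin 2) F, A ∉ center (SpecialLinearGroup (Fin 2) F) →
      Nat.card (Conic F A.1.trace) = (2 * r + 7) * 2 →
      (centralizer ({A} : Set (SpecialLinearGroup (Fin 2) F))).index = (r + 3) * (2 * r + 8) := by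
    intro A hA h
    have := key A hA
    rw [h] at this
    apply Nat.eq_of_mul_eq_mul_left (show 0 < (2 * r + 7) * 2 by omega)
    rw [this]; ring
  have k2 : ∀ A : SpecialLinearGroup (Fin 2) F, A ∉ center (SpecialLinearGroup (Fin 2) F) →
      Nat.card (Conic F A.1.trace) = 2 * r + 6 →
      (centralizer ({A} : Set (SpecialLinearGroup (Fin 2) F))).index = 2 * ((2 * r + 7) * (r + 4)) := by
    intro A hA h
    have := key A hA
    rw [h] at this
    apply Nat.eq_of_mul_eq_mul_left (show 0 < 2 * r + 6 by omega)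
    rw [this]; ring
  have k3 : ∀ A : SpecialLinearGroup (Fin 2) F, A ∉ center (SpecialLinearGroup (Fin 2) F) →
      Nat.card (Conic F A.1.trace) = 2 * r + 8 →
      (centralizer ({A} : Set (SpecialLinearGroup (Fin 2) F))).index = 2 * ((2 * r + 7) * (r + 3)) := by
    intro A hA h
    have := key A hA
    rw [h] at this
    apply Nat.eq_of_mul_eq_mul_left (show 0 < 2 * r + 8 by omega)
    rw [this]; ring
  -- the involutions
  obtain ⟨B, hB⟩ := exists_anti (F := F) ⟨_, hk⟩
  have hinv := index_eq_of_exists h2 hB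
  obtain ⟨D, hD⟩ : ∃ D, (centralizer ({QuotientGroup.mk' (center (SpecialLinearGroup (Fin 2) F)) (comp (0 : F))} :
    Set (ProjectiveSpecialLinearGroup (Fin 2) F))).index = D := ⟨_, rfl⟩
  have h04 : (0 : F) ^ 2 ≠ 4 := by
    intro h
    apply h2
    have : (2 : F) ^ 2 = 0 := by linear_combination -h
    exact (pow_eq_zero_iff (by norm_num)).1 this
  rw [hD] at hinv
  have hDval : (Nat.card (Conic F (0 : F)) = 2 * r + 6 ∧ D = (2 * r + 7) * (r + 4)) ∨
      (Nat.card (Conic F (0 : F)) = 2 * r + 8 ∧ D = (2 * r + 7) * (r + 3)) := by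
    rcases conic_cases (0 : F) with ⟨h, -⟩ | ⟨-, h | h⟩
    · exact absurd h h04
    · left
      have h5 : Nat.card (Conic F (0 : F)) = 2 * r + 6 := by rw [h, hq]; omega
      have h6 := k2 (comp 0) (comp_notMem 0) (by rw [comp_trace]; exact h5)
      rw [hinv] at h6
      exact ⟨h5, by omega⟩
    · right
      have h5 : Nat.card (Conic F (0 : F)) = 2 * r + 8 := by rw [h, hq]
      have h6 := k3 (comp 0) (comp_notMem 0) (by rw [comp_trace]; exact h5)
      rw [hinv] at h6
      exact ⟨h5, by omega⟩
  have hset : idx (ProjectiveSpecialLinearGroup (Fin 2) F) =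
      {(r + 3) * (2 * r + 8), 2 * ((2 * r + 7) * (r + 4)), 2 * ((2 * r + 7) * (r + 3)), D} := by
    have hmem : ∀ A : SpecialLinearGroup (Fin 2) F, ∀ n : ℕ, n ≠ 1 →
        (centralizer ({QuotientGroup.mk' (center (SpecialLinearGroup (Fin 2) F)) A} :
    Set (ProjectiveSpecialLinearGroup (Fin 2) F))).index = n →
        n ∈ idx (ProjectiveSpecialLinearGroup (Fin 2) F) := by
      intro A n hn h
      refine ⟨QuotientGroup.mk' (center (SpecialLinearGroup (Fin 2) F)) A, ?_, h.symm⟩
      intro h3
      apply hn
      rw [← h, index_eq_one, eq_top_iff]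
      intro y _
      rw [mem_centralizer_singleton_iff]
      exact mem_center_iff.mp h3 y
    have hno : ∀ t : F, t ≠ 0 → ¬ ∃ B : SpecialLinearGroup (Fin 2) F, B * comp t = - (comp t * B) := by
      rintro t ht ⟨B, hB⟩
      apply ht
      have := trace_zero h2 hB
      rwa [comp_trace] at this
    ext m
    simp only [Set.mem_insert_iff, Set.mem_singleton_iff]
    constructor
    · rintro ⟨x, hx, rfl⟩
      obtain ⟨A, rfl⟩ := QuotientGroup.mk'_surjective (center (SpecialLinearGroup (Fin 2) F)) x
      have hA : A ∉ center (SpecialLinearGroup (Fin 2) F) := by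
        intro hA
        apply hx
        have : QuotientGroup.mk' (center (SpecialLinearGroup (Fin 2) F)) A = 1 := by
          rw [← MonoidHom.mem_ker, QuotientGroup.ker_mk']; exact hA
        rw [this]
        exact one_mem _
      by_cases hB : ∃ B : SpecialLinearGroup (Fin 2) F, B * A = - (A * B)
      · obtain ⟨B, hB⟩ := hB
        have ht := trace_zero h2 hB
        have h5 := index_eq_of_exists h2 hB
        right; right; right
        rcases hDval with ⟨h6, h7⟩ | ⟨h6, h7⟩
        · have h8 := k2 A hA (by rw [ht]; exact h6)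
          rw [h5] at h8
          omega
        · have h8 := k3 A hA (by rw [ht]; exact h6)
          rw [h5] at h8
          omega
      · rw [← index_eq_of_not hB]
        rcases conic_cases A.1.trace with ⟨-, h⟩ | ⟨-, h | h⟩
        · rw [htwo, hq] at h
          exact Or.inl (k1 A hA h)
        · rw [hq] at h
          exact Or.inr (Or.inl (k2 A hA h))
        · rw [hq] at h
          exact Or.inr (Or.inr (Or.inl (k3 A hA h)))
    · rintro (rfl | rfl | rfl | rfl)
      · refine hmem (comp 2) _ ?_ ?_
        · nlinarith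
        · rw [← index_eq_of_not (hno 2 h2), k1 _ (comp_notMem 2)]
          rw [comp_trace]
          have := conic_degen (F := F) (e := 1) (by simp)
          rw [mul_one, htwo, hq] at this
          exact this
      · obtain ⟨t, s, h4, h5, h6⟩ := exists_split (F := F) (by rw [hq]; omega)
        refine hmem (comp t) _ ?_ ?_
        · nlinarith
        · rw [← index_eq_of_not (hno t h4), k2 _ (comp_notMem t)]
          rw [comp_trace, conic_split h5 h6, hq]
          omega
      · obtain ⟨t, h4, h5, h6⟩ := exists_nonsplit (F := F) (by rw [hq]; omega)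
        refine hmem (comp t) _ ?_ ?_
        · nlinarith
        · rw [← index_eq_of_not (hno t h4), k3 _ (comp_notMem t)]
          rw [comp_trace, conic_nonsplit h5 h6, hq]
      · refine hmem (comp 0) _ ?_ hD
        rintro rfl
        rcases hDval with ⟨-, h⟩ | ⟨-, h⟩
        · nlinarith
        · nlinarith
  rw [hset]
  have ha : (r + 3) * (2 * r + 8) = 2 * (r * r) + 14 * r + 24 := by ring
  have hb : 2 * ((2 * r + 7) * (r + 4)) = 4 * (r * r) + 30 * r + 56 := by ring
  have hc : 2 * ((2 * r + 7) * (r + 3)) = 4 * (r * r) + 26 * r + 42 := by ring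
  have hd1 : (2 * r + 7) * (r + 4) = 2 * (r * r) + 15 * r + 28 := by ring
  have hd2 : (2 * r + 7) * (r + 3) = 2 * (r * r) + 13 * r + 21 := by ring
  rw [hd1, hd2] at hDval
  rw [ha, hb, hc]
  have hlt : 0 ≤ r * r := Nat.zero_le _
  generalize r * r = s at *
  have hD2 : D = 2 * s + 15 * r + 28 ∨ D = 2 * s + 13 * r + 21 := by
    rcases hDval with h | h
    · exact Or.inl h.2
    · exact Or.inr h.2
  rw [Set.ncard_eq_toFinset_card']
  simp only [Set.toFinset_insert, Set.toFinset_singleton]
  rw [Finset.card_insert_of_notMem, Finset.card_insert_of_notMem, Finset.card_insert_of_notMem, Finset.card_singleton]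
  · rw [Finset.mem_singleton]; omega
  · simp only [Finset.mem_insert, Finset.mem_singleton]; omega
  · simp only [Finset.mem_insert, Finset.mem_singleton]
    rintro (h | h | h)
    · omega
    · omega
    · rcases hD2 with h8 | h8
      · omega
      · omega


theorem idx_PSL2_even [Fintype F] {m : ℕ} (hm : 2 ≤ m) (hF : Fintype.card F = 2 ^ m) :
    (idx (ProjectiveSpecialLinearGroup (Fin 2) F)).ncard = 3 := by
  have h4 : 4 ≤ Fintype.card F := by
    rw [hF]
    calc 4 = 2 ^ 2 := by norm_num
      _ ≤ 2 ^ m := Nat.pow_le_pow_right (by norm_num) hm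
  have h2 : (2 : F) = 0 := by
    by_contra h
    have := (two_ne_zero_iff_odd F).1 h
    rw [hF] at this
    exact (Nat.not_odd_iff_even.mpr ((Nat.even_pow.mpr ⟨even_two, by omega⟩))) this
  have hchar : CharP F 2 := CharTwo.of_one_ne_zero_of_two_eq_zero one_ne_zero h2
  rw [idx_congr (H426.psl2EvenEquiv F), idx_SL2_even h2 (by omega)]
  obtain ⟨r, hr⟩ : ∃ r, Fintype.card F = r + 4 := ⟨Fintype.card F - 4, by omega⟩
  rw [hr]
  have e1 : (r + 4) ^ 2 - 1 = r * r + 8 * r + 15 := by
    rw [Nat.sub_eq_iff_eq_add (by nlinarith)]; ring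
  have e2 : (r + 4) * (r + 4 + 1) = r * r + 9 * r + 20 := by ring
  have e3 : (r + 4) * (r + 4 - 1) = r * r + 7 * r + 12 := by
    have : r + 4 - 1 = r + 3 := by omega
    rw [this]; ring
  rw [e1, e2, e3]
  rw [Set.ncard_eq_toFinset_card']
  simp only [Set.toFinset_insert, Set.toFinset_singleton]
  rw [Finset.card_insert_of_notMem, Finset.card_insert_of_notMem, Finset.card_singleton]
  · rw [Finset.mem_singleton]; omega
  · simp only [Finset.mem_insert, Finset.mem_singleton]; omega

end Cfsg.Agent.H178.PSL2Idx
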